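import Mathlib

/-!
# Extending automorphisms of a normal abelian complement
-/

set_option autoImplicit false

namespace Cfsg.Agent.Lib.AutOrb

open Subgroup

variable {G : Type*} [Group G] [Finite G]

theorem commute_of_mem_zpowers {h a b : G} (ha : a ∈ zpowers h) (hb : b ∈ zpowers h) : a * b = b * a := by
  obtain ⟨m, rfl⟩ := mem_zpowers_iff.mp ha
  obtain ⟨n, rfl⟩ := mem_zpowers_iff.mp hb
  exact (Commute.zpow_zpow_self h m n).eq

/-- The extension lemma. -/
theorem ext_aut (P : Subgroup G) [hPn : P.Normal] {h : G} {q : ℕ} (hq : q.Prime) (hh : orderOf h = q)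
    (hcop : (Nat.card P).Coprime q) (hcard : Nat.card G = Nat.card P * q)
    (ψ : P ≃* P) (i : ℕ) (hi : i.Coprime q)
    (hψ : ∀ v w : P, (w : G) = h * v * h⁻¹ → ((ψ w : P) : G) = h ^ i * (ψ v : P) * (h ^ i)⁻¹) :
    ∃ φ : G ≃* G, (∀ v : P, φ v = ψ v) ∧ φ h = h ^ i := by
  classical
  let H : Subgroup G := zpowers h
  have hHc : Nat.card H = q := by rw [Nat.card_zpowers, hh]
  have hc : P.IsComplement' H := by
    apply Subgroup.isComplement'_of_coprime
    · rw [hHc, hcard]
    · rwa [hHc]
  -- the conjugation formula for all elements of `H`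
  have hψm : ∀ (m : ℕ) (v w : P), (w : G) = h ^ m * v * (h ^ m)⁻¹ →
      ((ψ w : P) : G) = (h ^ m) ^ i * (ψ v : P) * ((h ^ m) ^ i)⁻¹ := by
    intro m
    induction m with
    | zero =>
      intro v w hw
      have : w = v := Subtype.ext (by simpa using hw)
      simp [this]
    | succ m ih =>
      intro v w hw
      let v₁ : P := ⟨h ^ m * v * (h ^ m)⁻¹, hPn.conj_mem _ v.2 _⟩
      have h1 := ih v v₁ rfl
      have h2 : (w : G) = h * v₁ * h⁻¹ := by
        rw [hw, pow_succ']
        change _ = h * (h ^ m * v * (h ^ m)⁻¹) * h⁻¹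
        group
      have h3 := hψ v₁ w h2
      rw [h3, h1]
      have e : (h ^ (m + 1)) ^ i = h ^ i * (h ^ m) ^ i := by
        rw [← pow_mul, ← pow_mul, ← pow_add]
        congr 1
        ring
      rw [e]
      group
  have hmemH : ∀ k : H, ∃ m : ℕ, (k : G) = h ^ m := by
    intro k
    obtain ⟨m, hm⟩ := (mem_powers_iff_mem_zpowers.mpr k.2)
    exact ⟨m, hm.symm⟩
  let fn : P →* G := P.subtype.comp ψ.toMonoidHom
  let fg : H →* G :=
    { toFun := fun k => (k : G) ^ i
      map_one' := by simp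
      map_mul' := fun a b => by
        have hab : Commute (a : G) b := commute_of_mem_zpowers a.2 b.2
        change ((a : G) * b) ^ i = _
        rw [hab.mul_pow] }
  have hcompat : ∀ g : H, fn.comp (((P.normalizerMonoidHom).comp
      (inclusion (P.normalizer_eq_top ▸ le_top))) g).toMonoidHom =
      (MulAut.conj (fg g)).toMonoidHom.comp fn := by
    intro k
    ext v
    obtain ⟨m, hm⟩ := hmemH k
    have h1 := hψm m v ⟨(k : G) * v * (k : G)⁻¹, hPn.conj_mem _ v.2 _⟩ (by rw [← hm])
    have h2 : (fg k : G) = (h ^ m) ^ i := by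
      change (k : G) ^ i = _
      rw [hm]
    simp only [MonoidHom.comp_apply, MulEquiv.coe_toMonoidHom, MulAut.conj_apply]
    rw [h2]
    exact h1
  let F := SemidirectProduct.lift fn fg hcompat
  let e := SemidirectProduct.mulEquivSubgroup hc
  let Φ : G →* G := F.comp e.symm.toMonoidHom
  have hΦ : ∀ x, Φ (e x) = ((ψ x.left : P) : G) * (x.right : G) ^ i := by
    intro x
    change F (e.symm (e x)) = _
    rw [MulEquiv.symm_apply_apply]
    rfl
  have he : ∀ x, e x = ((x.left : P) : G) * (x.right : G) := fun _ => rfl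
  -- inverse exponent
  obtain ⟨i', hi'⟩ : ∃ i' : ℕ, i * i' % q = 1 % q := by
    obtain ⟨u, hu⟩ := Nat.exists_mul_mod_eq_one_of_coprime hi hq.one_lt
    exact ⟨u, by rw [hu.2, Nat.mod_eq_of_lt hq.one_lt]⟩
  have hsurj : Function.Surjective Φ := by
    intro g
    obtain ⟨x, rfl⟩ := e.surjective g
    refine ⟨e ⟨ψ.symm x.left, ⟨((x.right : G) ^ i'), pow_mem x.right.2 i'⟩⟩, ?_⟩
    rw [hΦ, he]
    change ((ψ (ψ.symm x.left) : P) : G) * ((x.right : G) ^ i') ^ i = _
    rw [MulEquiv.apply_symm_apply, ← pow_mul]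
    congr 1
    have h3 : (x.right : G) ^ q = 1 := by
      have h4 := orderOf_dvd_natCard x.right
      rw [hHc, Subgroup.orderOf_coe x.right |>.symm] at h4
      exact orderOf_dvd_iff_pow_eq_one.mp h4
    have h5 : i' * i ≡ 1 [MOD q] := by
      rw [mul_comm]
      exact hi'
    calc (x.right : G) ^ (i' * i) = (x.right : G) ^ (i' * i % q) := by
          conv_lhs => rw [← Nat.div_add_mod (i' * i) q, pow_add, pow_mul, h3, one_pow, one_mul]
      _ = (x.right : G) ^ (1 % q) := by rw [h5]
      _ = (x.right : G) := by rw [Nat.mod_eq_of_lt hq.one_lt, pow_one]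
  have hbij : Function.Bijective Φ := ⟨Finite.injective_iff_surjective.mpr hsurj, hsurj⟩
  refine ⟨MulEquiv.ofBijective Φ hbij, ?_, ?_⟩
  · intro v
    have h1 : (v : G) = e (SemidirectProduct.inl v) := by
      rw [he]
      simp
    change Φ (v : G) = _
    rw [h1, hΦ]
    simp
  · have hhH : h ∈ H := mem_zpowers h
    have h1 : h = e (SemidirectProduct.inr ⟨h, hhH⟩) := by
      rw [he]
      simp
    change Φ h = _
    conv_lhs => rw [h1]
    rw [hΦ]
    simp

end Cfsg.Agent.Lib.AutOrb
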