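import Mathlib

/-!
# Semilinear maps for a fixed-point-free operator of prime order, `p` a primitive root
-/

set_option autoImplicit false

namespace Cfsg.Agent.Lib.AutOrb

open Polynomial

theorem cyclotomic_irreducible_of_orderOf {p q : ℕ} [hp : Fact p.Prime] [hq : Fact q.Prime]
    (hpq : p ≠ q) (hord : orderOf (p : ZMod q) = q - 1) :
    Irreducible (cyclotomic q (ZMod p)) := by
  classical
  have hq1 : 1 < q := hq.out.one_lt
  have hdeg : (cyclotomic q (ZMod p)).natDegree = q - 1 := by
    rw [natDegree_cyclotomic, Nat.totient_prime hq.out]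
  have hne : cyclotomic q (ZMod p) ≠ 0 := cyclotomic_ne_zero q (ZMod p)
  have hnu : ¬ IsUnit (cyclotomic q (ZMod p)) := by
    intro hu
    have := natDegree_eq_zero_of_isUnit hu
    omega
  obtain ⟨g, hg, hgd⟩ := WfDvdMonoid.exists_irreducible_factor hnu hne
  haveI : Fact (Irreducible g) := ⟨hg⟩
  -- the field
  let L := AdjoinRoot g
  haveI : Finite L := by
    haveI : Module.Finite (ZMod p) L := (AdjoinRoot.powerBasis hg.ne_zero).finite
    exact Module.finite_of_finite (ZMod p)
  let α : L := AdjoinRoot.root g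
  have hα : aeval α g = 0 := by
    rw [AdjoinRoot.aeval_eq]
    exact AdjoinRoot.mk_self
  have hΦα : aeval α (cyclotomic q (ZMod p)) = 0 := by
    obtain ⟨c, hc⟩ := hgd
    rw [hc, map_mul, hα, zero_mul]
  have hαq : α ^ q = 1 := by
    obtain ⟨c, hc⟩ := cyclotomic.dvd_X_pow_sub_one q (ZMod p)
    have h1 := congrArg (aeval α) hc
    rw [map_mul, hΦα, zero_mul, map_sub, map_pow, aeval_X, map_one, sub_eq_zero] at h1
    exact h1
  have hCharL : CharP L p := charP_of_injective_algebraMap (algebraMap (ZMod p) L).injective p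
  have hα1 : α ≠ 1 := by
    intro h1
    have h2 := hΦα
    rw [h1, aeval_def, eval₂_at_one, eval_one_cyclotomic_prime] at h2
    have h3 : (q : L) = 0 := by simpa using h2
    rw [CharP.cast_eq_zero_iff L p q] at h3
    exact hpq ((Nat.prime_dvd_prime_iff_eq hp.out hq.out).mp h3)
  have hordα : orderOf α = q := orderOf_eq_prime hαq hα1
  have hα0 : α ≠ 0 := by
    intro h0
    rw [h0, zero_pow hq.out.ne_zero] at hαq
    exact zero_ne_one hαq
  let u : Lˣ := Units.mk0 α hα0
  have hu : orderOf u = q := by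
    rw [← hordα, ← orderOf_units]
    rfl
  have hcardL : Nat.card L = p ^ g.natDegree := by
    haveI : Fintype L := Fintype.ofFinite L
    have h1 := Module.card_eq_pow_finrank (K := ZMod p) (V := L)
    rw [ZMod.card] at h1
    rw [Nat.card_eq_fintype_card, h1, (AdjoinRoot.powerBasis hg.ne_zero).finrank,
      AdjoinRoot.powerBasis_dim hg.ne_zero]
  have hdvd : q ∣ p ^ g.natDegree - 1 := by
    have h1 := orderOf_dvd_natCard u
    rw [hu, Nat.card_units, hcardL] at h1
    exact h1
  have hpow : (p : ZMod q) ^ g.natDegree = 1 := by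
    have h2 : 1 ≤ p ^ g.natDegree := Nat.one_le_pow _ _ hp.out.pos
    have h3 : ((p ^ g.natDegree - 1 : ℕ) : ZMod q) = 0 := (ZMod.natCast_eq_zero_iff _ _).mpr hdvd
    rw [Nat.cast_sub h2, sub_eq_zero] at h3
    simpa using h3
  have hdegg : q - 1 ∣ g.natDegree := hord ▸ orderOf_dvd_of_pow_eq_one hpow
  have hg0 : g.natDegree ≠ 0 := hg.natDegree_pos.ne'
  have hle : q - 1 ≤ g.natDegree := Nat.le_of_dvd (Nat.pos_of_ne_zero hg0) hdegg
  obtain ⟨c, hc⟩ := hgd
  have hc0 : c ≠ 0 := by
    rintro rfl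
    rw [mul_zero] at hc
    exact hne hc
  have hdegc : c.natDegree = 0 := by
    have h1 := natDegree_mul hg.ne_zero hc0
    rw [← hc, hdeg] at h1
    omega
  have hcu : IsUnit c := by
    rw [natDegree_eq_zero] at hdegc
    obtain ⟨a, rfl⟩ := hdegc
    have ha0 : a ≠ 0 := by
      rintro rfl
      exact hc0 (by simp)
    exact isUnit_C.mpr (isUnit_iff_ne_zero.mpr ha0)
  rw [hc]
  exact (irreducible_mul_isUnit hcu).mpr hg

section module

variable {p q : ℕ} [hp : Fact p.Prime] [hq : Fact q.Prime]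
  {V : Type*} [AddCommGroup V] [Finite V]

/-- Semilinear and linear automorphisms, linear version. -/
theorem exists_semilinear' [Module (ZMod p) V] (ρ' : V →ₗ[ZMod p] V) (hpq : p ≠ q)
    (hord : orderOf (p : ZMod q) = q - 1)
    (hnorm : ∀ v : V, ∑ i ∈ Finset.range q, (ρ' ^ i) v = 0) :
    (∀ v w : V, v ≠ 0 → w ≠ 0 → ∃ ψ : V ≃+ V, ψ v = w ∧ ∀ u, ψ (ρ' u) = ρ' (ψ u)) ∧
    ∃ σ : V ≃+ V, ∀ u, σ (ρ' u) = (ρ' ^ p) (σ u) := by
  classical
  haveI : Fact (Irreducible (cyclotomic q (ZMod p))) := ⟨cyclotomic_irreducible_of_orderOf hpq hord⟩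
  have hΦ : aeval ρ' (cyclotomic q (ZMod p)) = 0 := by
    rw [cyclotomic_prime, map_sum]
    ext v
    simp only [map_pow, aeval_X, LinearMap.coe_sum, Finset.sum_apply, LinearMap.zero_apply]
    exact hnorm v
  let K := AdjoinRoot (cyclotomic q (ZMod p))
  let f : K →+* Module.End (ZMod p) V :=
    Ideal.Quotient.lift (Ideal.span {cyclotomic q (ZMod p)})
      (aeval ρ' : (ZMod p)[X] →ₐ[ZMod p] Module.End (ZMod p) V).toRingHom (by
        intro a ha
        obtain ⟨c, rfl⟩ := Ideal.mem_span_singleton.mp ha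
        change aeval ρ' (cyclotomic q (ZMod p) * c) = 0
        rw [map_mul, hΦ, zero_mul])
  letI : Module K V := Module.compHom V f
  let r : K := AdjoinRoot.root _
  have hsmul : ∀ (s : K) (v : V), s • v = f s v := fun _ _ => rfl
  have hfr : f r = ρ' := by
    change aeval ρ' X = ρ'
    rw [aeval_X]
  have hr : ∀ v : V, r • v = ρ' v := by
    intro v
    rw [hsmul, hfr]
  have hrp : ∀ (n : ℕ) (v : V), r ^ n • v = (ρ' ^ n) v := by
    intro n v
    rw [hsmul, map_pow, hfr]
  haveI : Finite K := by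
    haveI : Module.Finite (ZMod p) K :=
      (AdjoinRoot.powerBasis (cyclotomic_ne_zero q (ZMod p))).finite
    exact Module.finite_of_finite (ZMod p)
  haveI hCharK : CharP K p := charP_of_injective_algebraMap (algebraMap (ZMod p) K).injective p
  haveI : FiniteDimensional K V := Module.Finite.of_finite
  constructor
  · intro v w hv hw
    let e : (K ∙ v) ≃ₗ[K] (K ∙ w) :=
      (LinearEquiv.toSpanNonzeroSingleton K V v hv).symm.trans
        (LinearEquiv.toSpanNonzeroSingleton K V w hw)
    haveI : FiniteDimensional K (K ∙ v) := Module.Finite.of_finite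
    obtain ⟨g, hg⟩ := Submodule.exists_linearEquiv_restrict_eq e
    refine ⟨g.toAddEquiv, ?_, ?_⟩
    · have h1 := hg ⟨v, Submodule.mem_span_singleton_self v⟩
      have h2 : e ⟨v, Submodule.mem_span_singleton_self v⟩ =
          ⟨w, Submodule.mem_span_singleton_self w⟩ := by
        have h3 : (LinearEquiv.toSpanNonzeroSingleton K V v hv).symm
            ⟨v, Submodule.mem_span_singleton_self v⟩ = 1 := by
          rw [LinearEquiv.symm_apply_eq]
          exact (LinearEquiv.toSpanNonzeroSingleton_one K V v hv).symm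
        change LinearEquiv.toSpanNonzeroSingleton K V w hw
          ((LinearEquiv.toSpanNonzeroSingleton K V v hv).symm
            ⟨v, Submodule.mem_span_singleton_self v⟩) = _
        rw [h3]
        exact LinearEquiv.toSpanNonzeroSingleton_one K V w hw
      rw [h2] at h1
      exact h1.symm
    · intro u
      change g (ρ' u) = ρ' (g u)
      rw [← hr, ← hr, map_smul]
  · classical
    let b := Module.finBasis K V
    let eq := b.equivFun
    let σ₀ : V →+ V :=
      { toFun := fun v => eq.symm (fun i => (eq v i) ^ p)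
        map_zero' := by
          have h0 : (fun i => ((eq (0 : V)) i) ^ p) = 0 := by
            ext i
            simp [hp.out.ne_zero]
          rw [h0, map_zero]
        map_add' := by
          intro x y
          rw [← map_add]
          congr 1
          ext i
          simp [add_pow_char] }
    have hσ₀ : ∀ v, σ₀ v = eq.symm (fun i => (eq v i) ^ p) := fun _ => rfl
    have hinj : Function.Injective σ₀ := by
      intro x y hxy
      rw [hσ₀, hσ₀] at hxy
      have hxy' := eq.symm.injective hxy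
      apply eq.injective
      ext i
      exact frobenius_inj K p (congrFun hxy' i)
    have hbij : Function.Bijective σ₀ := ⟨hinj, Finite.surjective_of_injective hinj⟩
    refine ⟨AddEquiv.ofBijective σ₀ hbij, fun u => ?_⟩
    change σ₀ (ρ' u) = (ρ' ^ p) (σ₀ u)
    have h1 : (fun i => (eq (r • u) i) ^ p) = r ^ p • (fun i => (eq u i) ^ p) := by
      ext i
      simp [mul_pow]
    rw [← hr, ← hrp, hσ₀, hσ₀, h1, map_smul]

theorem semilinear_aux [Module (ZMod p) V] (ρ : V →+ V) (hpq : p ≠ q)
    (hord : orderOf (p : ZMod q) = q - 1)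
    (hnorm : ∀ v : V, ∑ i ∈ Finset.range q, (ρ^[i]) v = 0) :
    (∀ v w : V, v ≠ 0 → w ≠ 0 → ∃ ψ : V ≃+ V, ψ v = w ∧ ∀ u, ψ (ρ u) = ρ (ψ u)) ∧
    ∃ σ : V ≃+ V, ∀ u, σ (ρ u) = (ρ^[p]) (σ u) := by
  have hpow : ∀ (i : ℕ) (v : V), ((ρ.toZModLinearMap p) ^ i) v = (ρ^[i]) v := by
    intro i v
    rw [Module.End.pow_apply]
    induction i with
    | zero => rfl
    | succ i ih =>
      rw [Function.iterate_succ_apply', Function.iterate_succ_apply', ih]
      rfl
  obtain ⟨h1, σ, hσ⟩ := exists_semilinear' (ρ.toZModLinearMap p) hpq hord (fun v => by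
    simp only [hpow]
    exact hnorm v)
  refine ⟨h1, σ, fun u => ?_⟩
  have := hσ u
  rw [hpow] at this
  exact this

/-- Semilinear and linear automorphisms. -/
theorem exists_semilinear (ρ : V →+ V) (hpq : p ≠ q) (hord : orderOf (p : ZMod q) = q - 1)
    (hpV : ∀ v : V, p • v = 0) (hnorm : ∀ v : V, ∑ i ∈ Finset.range q, (ρ^[i]) v = 0) :
    (∀ v w : V, v ≠ 0 → w ≠ 0 → ∃ ψ : V ≃+ V, ψ v = w ∧ ∀ u, ψ (ρ u) = ρ (ψ u)) ∧
    ∃ σ : V ≃+ V, ∀ u, σ (ρ u) = (ρ^[p]) (σ u) :=
  @semilinear_aux p q _ _ V _ _ (AddCommGroup.zmodModule hpV) ρ hpq hord hnorm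

end module

end Cfsg.Agent.Lib.AutOrb
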