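import Mathlib
import Cfsg.Agent.Lib.AutOrb.Ext
import Cfsg.Agent.Lib.AutOrb.Semi
import Cfsg.Agent.Lib.Fpf4.Main
import Cfsg.Prelude.Def_Transfer

/-!
# Exactly three orbits: the converse direction
-/

set_option autoImplicit false

namespace Cfsg.Agent.Lib.AutOrb

open Subgroup Cfsg.Agent.Lib.Fpf4
open scoped IsMulCommutative

variable {G : Type*} [Group G] [Finite G]

theorem orbit_mk_eq_iff {a b : G} :
    (Quotient.mk'' a : MulAction.orbitRel.Quotient (MulAut G) G) = Quotient.mk'' b ↔
      ∃ φ : MulAut G, φ b = a := by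
  rw [Quotient.eq'', MulAction.orbitRel_apply, MulAction.mem_orbit_iff]
  rfl

section conj

variable (P : Subgroup G) [hPn : P.Normal] [hPc : IsMulCommutative P]

theorem rho_iter (h : G) (i : ℕ) (v : Additive P) :
    ((Additive.toMul ((conjEnd P h : Additive P →+ Additive P)^[i] v) : P) : G) =
      h ^ i * (Additive.toMul v : P) * (h ^ i)⁻¹ := by
  induction i with
  | zero => simp
  | succ i ih =>
    rw [Function.iterate_succ_apply']
    change h * ((Additive.toMul ((conjEnd P h : Additive P →+ Additive P)^[i] v) : P) : G) * h⁻¹ = _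
    rw [ih, pow_succ']
    group

/-- Additive automorphisms of `P` intertwining conjugation by `h` and by `h ^ i` extend. -/
theorem ext_aut_add {h : G} {q : ℕ} (hq : q.Prime) (hh : orderOf h = q)
    (hcop : (Nat.card P).Coprime q) (hcard : Nat.card G = Nat.card P * q)
    (ψ : Additive P ≃+ Additive P) (i : ℕ) (hi : i.Coprime q)
    (hψ : ∀ u, ψ ((conjEnd P h : Additive P →+ Additive P) u) =
      ((conjEnd P h : Additive P →+ Additive P)^[i]) (ψ u)) :
    ∃ φ : G ≃* G, (∀ v : P, (φ v : G) = ((Additive.toMul (ψ (Additive.ofMul v)) : P) : G)) ∧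
      φ h = h ^ i := by
  refine ext_aut P hq hh hcop hcard (MulEquiv.toAdditive.symm ψ) i hi ?_
  intro v w hw
  have h1 : w = Additive.toMul ((conjEnd P h : Additive P →+ Additive P) (Additive.ofMul v)) :=
    Subtype.ext hw
  have h2 := hψ (Additive.ofMul v)
  have h3 : ((MulEquiv.toAdditive.symm ψ w : P) : G) =
      ((Additive.toMul (ψ (Additive.ofMul w)) : P) : G) := rfl
  rw [h3, h1]
  change ((Additive.toMul (ψ ((conjEnd P h : Additive P →+ Additive P) (Additive.ofMul v))) : P) : G) = _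
  rw [h2, rho_iter]
  rfl

end conj

/-- Every residue prime to `q` is a power of a primitive root. -/
theorem exists_pow_eq_of_primitive {p q : ℕ} [hq : Fact q.Prime] (hpq : p ≠ q) [hp : Fact p.Prime]
    (hord : orderOf (p : ZMod q) = q - 1) {e : ZMod q} (he : e ≠ 0) :
    ∃ m : ℕ, (p : ZMod q) ^ m = e := by
  have hp0 : (p : ZMod q) ≠ 0 := by
    intro h0
    rw [ZMod.natCast_eq_zero_iff] at h0
    exact hpq ((Nat.prime_dvd_prime_iff_eq hq.out hp.out).mp h0).symm
  let u : (ZMod q)ˣ := Units.mk0 _ hp0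
  let w : (ZMod q)ˣ := Units.mk0 _ he
  have hu : orderOf u = q - 1 := by
    rw [← hord, ← orderOf_units]
    rfl
  have htop : zpowers u = ⊤ := by
    apply Subgroup.eq_top_of_card_eq
    rw [Nat.card_zpowers, hu, Nat.card_eq_fintype_card, ZMod.card_units]
  have hw : w ∈ zpowers u := by rw [htop]; exact mem_top _
  obtain ⟨m, hm⟩ := mem_powers_iff_mem_zpowers.mpr hw
  refine ⟨m, ?_⟩
  have h1 := congrArg Units.val hm
  simpa [u, w] using h1

/-- **The converse direction.** -/
theorem three_orbits_of_struct {p q n : ℕ} [hp : Fact p.Prime] [hq : Fact q.Prime] (hpq : p ≠ q)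
    (hn : 1 ≤ n) (hcard : Nat.card G = p ^ n * q)
    (hS : ∀ P : Sylow p G, (P : Subgroup G).Normal ∧ Cfsg.IsElementaryAbelian p (P : Subgroup G))
    (hord : orderOf (p : ZMod q) = q - 1)
    (hcomm : ∀ x y : G, orderOf x = q → orderOf y = p → x * y * x⁻¹ ≠ y) :
    Nat.card (MulAction.orbitRel.Quotient (MulAut G) G) = 3 := by
  classical
  let P₀ : Sylow p G := default
  let P : Subgroup G := P₀
  haveI hPn : P.Normal := (hS P₀).1
  have hPe : Cfsg.IsElementaryAbelian p P := (hS P₀).2
  haveI hPc : IsMulCommutative P := hPe.1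
  have hPp : ∀ x ∈ P, x ^ p = 1 := hPe.2
  have hPcard : Nat.card P = p ^ n := by
    have h1 := P₀.card_eq_multiplicity
    have hq0 : q ≠ 0 := hq.out.ne_zero
    have hpq' : ¬ p ∣ q := fun h => hpq ((Nat.prime_dvd_prime_iff_eq hp.out hq.out).mp h)
    rw [hcard, Nat.factorization_mul (pow_ne_zero _ hp.out.ne_zero) hq0] at h1
    simp only [Finsupp.coe_add, Pi.add_apply, Nat.Prime.factorization_pow hp.out,
      Finsupp.single_eq_same, Nat.factorization_eq_zero_of_not_dvd hpq', add_zero] at h1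
    exact h1
  have hGP : Nat.card G = Nat.card P * q := by rw [hPcard, hcard]
  have hcop : (Nat.card P).Coprime q := by
    rw [hPcard]
    exact Nat.Coprime.pow_left n ((Nat.coprime_primes hp.out hq.out).mpr hpq)
  obtain ⟨h, hh⟩ : ∃ h : G, orderOf h = q :=
    exists_prime_orderOf_dvd_card' q (by rw [hcard]; exact dvd_mul_left _ _)
  have hhq : h ^ q = 1 := by rw [← hh]; exact pow_orderOf_eq_one h
  have hfix : ∀ v ∈ P, h * v = v * h → v = 1 := by
    intro v hv hc
    by_contra hv1
    have h1 : orderOf v = p := orderOf_eq_prime (hPp v hv) hv1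
    apply hcomm h v hh h1
    rw [hc]
    group
  let ρ : Additive P →+ Additive P := conjEnd P h
  have hρv : ∀ v : Additive P, ((Additive.toMul (ρ v) : P) : G) = h * (Additive.toMul v : P) * h⁻¹ :=
    fun _ => rfl
  have hρq : ∀ v : Additive P, (ρ^[q]) v = v := by
    intro v
    apply Additive.toMul.injective
    apply Subtype.ext
    refine (rho_iter P h q v).trans ?_
    rw [hhq]
    simp
  have hρfix : ∀ w : Additive P, ρ w = w → w = 0 := by
    intro w hw
    have h1 := congrArg (fun v : Additive P => ((Additive.toMul v : P) : G)) hw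
    change h * ((Additive.toMul w : P) : G) * h⁻¹ = _ at h1
    have h2 := hfix _ (Additive.toMul w : P).2 (mul_inv_eq_iff_eq_mul.mp h1)
    apply Additive.toMul.injective
    exact Subtype.ext h2
  have hnorm : ∀ v : Additive P, ∑ i ∈ Finset.range q, (ρ^[i]) v = 0 := by
    intro v
    apply hρfix
    rw [map_sum]
    have h1 : ∀ i ∈ Finset.range q, ρ ((ρ^[i]) v) = (ρ^[i + 1]) v := fun i _ =>
      (Function.iterate_succ_apply' ρ i v).symm
    rw [Finset.sum_congr rfl h1]
    obtain ⟨m, hm⟩ : ∃ m, q = m + 1 := ⟨q - 1, by have := hq.out.pos; omega⟩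
    have h2 := hρq v
    rw [hm] at h2 ⊢
    rw [Finset.sum_range_succ, Finset.sum_range_succ', h2]
    rfl
  have hpV : ∀ v : Additive P, p • v = 0 := by
    intro v
    apply Additive.toMul.injective
    apply Subtype.ext
    exact hPp _ (Additive.toMul v : P).2
  obtain ⟨hlin, σ, hσ⟩ := exists_semilinear (p := p) (q := q) ρ hpq hord hpV hnorm
  -- elements outside `P`
  have hout : ∀ g, g ∉ P → orderOf g = q := by
    intro g hg
    have hG1 : Nat.card (G ⧸ P) = q := by
      have h1 := Subgroup.card_eq_card_quotient_mul_card_subgroup P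
      rw [hGP, mul_comm] at h1
      exact (Nat.eq_of_mul_eq_mul_right Nat.card_pos h1).symm
    have hπ1 : (g : G ⧸ P) ≠ 1 := fun h0 => hg ((QuotientGroup.eq_one_iff g).mp h0)
    have hgq : g ^ q ∈ P := by
      have h1 : ((g : G ⧸ P)) ^ q = 1 := by
        have := pow_card_eq_one' (x := (g : G ⧸ P))
        rwa [hG1] at this
      rw [← QuotientGroup.mk_pow] at h1
      exact (QuotientGroup.eq_one_iff _).mp h1
    have hg1 : g ≠ 1 := by
      rintro rfl
      exact hg (one_mem _)
    by_contra hne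
    have hgq1 : g ^ q ≠ 1 := by
      intro h1
      exact hne (orderOf_eq_prime h1 hg1)
    have hy : orderOf (g ^ q) = p := orderOf_eq_prime (hPp _ hgq) hgq1
    have hgp1 : g ^ p ≠ 1 := by
      intro h1
      have h2 : (g : G ⧸ P) ^ p = 1 := by
        rw [← QuotientGroup.mk_pow, h1]
        rfl
      have h3 : orderOf (g : G ⧸ P) = q := by
        have h4 := orderOf_dvd_natCard (g : G ⧸ P)
        rw [hG1] at h4
        rcases (Nat.dvd_prime hq.out).mp h4 with h5 | h5
        · exact absurd (orderOf_eq_one_iff.mp h5) hπ1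
        · exact h5
      have h4 := orderOf_dvd_of_pow_eq_one h2
      rw [h3] at h4
      exact hpq ((Nat.prime_dvd_prime_iff_eq hq.out hp.out).mp h4).symm
    have hxq : (g ^ p) ^ q = 1 := by
      rw [← pow_mul, mul_comm, pow_mul, hPp _ hgq]
    have hx : orderOf (g ^ p) = q := orderOf_eq_prime hxq hgp1
    apply hcomm _ _ hx hy
    have hc : Commute (g ^ p) (g ^ q) := Commute.pow_pow_self g p q
    rw [hc.eq]
    group
  -- automorphisms on `P`
  have hautP : ∀ v ∈ P, ∀ w ∈ P, v ≠ 1 → w ≠ 1 → ∃ φ : MulAut G, φ v = w := by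
    intro v hv w hw hv1 hw1
    have hv0 : Additive.ofMul (⟨v, hv⟩ : P) ≠ 0 := fun h0 =>
      hv1 (congrArg Subtype.val (Additive.ofMul.injective h0))
    have hw0 : Additive.ofMul (⟨w, hw⟩ : P) ≠ 0 := fun h0 =>
      hw1 (congrArg Subtype.val (Additive.ofMul.injective h0))
    obtain ⟨ψ, hψ1, hψ2⟩ := hlin _ _ hv0 hw0
    obtain ⟨φ, hφ, -⟩ := ext_aut_add P hq.out hh hcop hGP ψ 1 (Nat.coprime_one_left q)
      (fun u => by rw [Function.iterate_one]; exact hψ2 u)
    refine ⟨φ, ?_⟩
    have h1 := hφ ⟨v, hv⟩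
    rw [hψ1] at h1
    exact h1
  obtain ⟨φ₀, -, hφ₀⟩ := ext_aut_add P hq.out hh hcop hGP σ p
    ((Nat.coprime_primes hp.out hq.out).mpr hpq) hσ
  have hpowφ : ∀ m : ℕ, ((φ₀ ^ m : MulAut G) h) = h ^ (p ^ m) := by
    intro m
    induction m with
    | zero => simp
    | succ m ih =>
      rw [pow_succ', MulAut.mul_apply, ih, map_pow]
      change (φ₀ h) ^ (p ^ m) = _
      rw [hφ₀, ← pow_mul, pow_succ']
  have hfac : (Nat.card G).factorization q = 1 := by
    have hp0 : p ^ n ≠ 0 := pow_ne_zero _ hp.out.ne_zero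
    rw [hcard, Nat.factorization_mul hp0 hq.out.ne_zero]
    simp only [Finsupp.coe_add, Pi.add_apply, Nat.Prime.factorization_pow hp.out,
      Nat.Prime.factorization_self hq.out]
    rw [Finsupp.single_eq_of_ne hpq.symm]
  have hautq : ∀ g, orderOf g = q → ∃ φ : MulAut G, φ h = g := by
    intro g hg
    let S₁ : Sylow q G := Sylow.ofCard (zpowers g) (by rw [Nat.card_zpowers, hg, hfac, pow_one])
    let S₂ : Sylow q G := Sylow.ofCard (zpowers h) (by rw [Nat.card_zpowers, hh, hfac, pow_one])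
    obtain ⟨y, hy⟩ := MulAction.exists_smul_eq G S₂ S₁
    have h1 : g ∈ ((y • S₂ : Sylow q G) : Subgroup G) := by
      rw [hy]
      exact mem_zpowers g
    rw [Sylow.coe_subgroup_smul, Subgroup.mem_pointwise_smul_iff_inv_smul_mem] at h1
    have h2 : (MulAut.conj y)⁻¹ • g = y⁻¹ * g * y := by
      simp [MulAut.smul_def, MulAut.conj_inv_apply]
    rw [h2] at h1
    obtain ⟨m, hm⟩ := mem_powers_iff_mem_zpowers.mpr (show y⁻¹ * g * y ∈ zpowers h from h1)
    have hm0 : (m : ZMod q) ≠ 0 := by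
      intro h0
      rw [ZMod.natCast_eq_zero_iff] at h0
      obtain ⟨k, rfl⟩ := h0
      have h3 : y⁻¹ * g * y = 1 := by
        rw [← hm]
        change h ^ (q * k) = 1
        rw [pow_mul, hhq, one_pow]
      have h4 : g = 1 := by
        have h5 : g = y * (y⁻¹ * g * y) * y⁻¹ := by group
        rw [h5, h3]
        group
      rw [h4, orderOf_one] at hg
      exact hq.out.one_lt.ne hg
    obtain ⟨a, ha⟩ := exists_pow_eq_of_primitive hpq hord hm0
    refine ⟨MulAut.conj y * φ₀ ^ a, ?_⟩
    rw [MulAut.mul_apply, hpowφ, MulAut.conj_apply]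
    have h3 : h ^ (p ^ a) = h ^ m := by
      rw [pow_eq_pow_iff_modEq, hh, ← ZMod.natCast_eq_natCast_iff]
      push_cast
      exact ha
    have h4 : h ^ m = y⁻¹ * g * y := hm
    rw [h3, h4]
    group
  obtain ⟨v₀, hv₀, hv₀1⟩ : ∃ v ∈ P, v ≠ 1 := by
    have h1 : P ≠ ⊥ := by
      intro h0
      have h2 : Nat.card P = 1 := by rw [h0]; exact Nat.card_unique
      rw [hPcard] at h2
      exact (Nat.one_lt_pow (by omega) hp.out.one_lt).ne' h2
    obtain ⟨m, hm⟩ := (Subgroup.ne_bot_iff_exists_ne_one (H := P)).mp h1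
    exact ⟨m.1, m.2, fun h' => hm (Subtype.ext h')⟩
  have hv₀o : orderOf v₀ = p := orderOf_eq_prime (hPp v₀ hv₀) hv₀1
  -- the bijection
  let f : Fin 3 → MulAction.orbitRel.Quotient (MulAut G) G :=
    ![Quotient.mk'' (1 : G), Quotient.mk'' v₀, Quotient.mk'' h]
  have hordinv : ∀ a b : G, (Quotient.mk'' a : MulAction.orbitRel.Quotient (MulAut G) G) =
      Quotient.mk'' b → orderOf a = orderOf b := by
    intro a b hab
    obtain ⟨φ, rfl⟩ := orbit_mk_eq_iff.mp hab
    exact MulEquiv.orderOf_eq φ b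
  have hq1 := hq.out.one_lt
  have hp1 := hp.out.one_lt
  have hinj : Function.Injective f := by
    intro i j hij
    fin_cases i <;> fin_cases j <;> first | rfl | skip
    all_goals exfalso
    all_goals
      have h0 := hordinv _ _ hij
      simp only [orderOf_one, hv₀o, hh] at h0
      omega
  have hsurj : Function.Surjective f := by
    intro x
    obtain ⟨g, rfl⟩ := Quotient.exists_rep x
    by_cases hg1 : g = 1
    · exact ⟨0, by rw [hg1]; rfl⟩
    by_cases hgP : g ∈ P
    · refine ⟨1, ?_⟩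
      obtain ⟨φ, hφ⟩ := hautP v₀ hv₀ g hgP hv₀1 hg1
      exact (orbit_mk_eq_iff.mpr ⟨φ, hφ⟩).symm
    · refine ⟨2, ?_⟩
      obtain ⟨φ, hφ⟩ := hautq g (hout g hgP)
      exact (orbit_mk_eq_iff.mpr ⟨φ, hφ⟩).symm
  rw [← Nat.card_eq_of_bijective f ⟨hinj, hsurj⟩, Nat.card_fin]

end Cfsg.Agent.Lib.AutOrb
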