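import Mathlib

/-!
# A field criterion and Frobenius

A finite commutative ring acting faithfully on a module in which all non-zero vectors have
annihilators of the same size is a field.  Ring endomorphisms of finite fields are powers of
Frobenius.
-/

set_option autoImplicit false

namespace Cfsg.Agent.Lib.AutOrb

section ann

variable {S V : Type*} [CommRing S] [Finite S] [AddCommGroup V] [Module S V]

/-- The annihilator of a vector. -/
def annI (v : V) : Ideal S where
  carrier := {s | s • v = 0}
  zero_mem' := zero_smul S v
  add_mem' := fun {a b} ha hb => by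
    change (a + b) • v = 0
    rw [add_smul, show a • v = 0 from ha, show b • v = 0 from hb, add_zero]
  smul_mem' := fun c x hx => by
    change (c • x) • v = 0
    rw [smul_assoc, show x • v = 0 from hx, smul_zero]

theorem mem_annI {v : V} {s : S} : s ∈ annI v ↔ s • v = 0 := Iff.rfl

omit [AddCommGroup V] [Module S V] in
theorem eq_of_le_of_card {I J : Ideal S} (h : I ≤ J) (hc : Nat.card I = Nat.card J) : I = J := by
  have h1 : (I : Set S) ⊆ J := h
  have h2 : (I : Set S) = J := by
    apply Set.eq_of_subset_of_ncard_le h1 _ (Set.toFinite _)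
    rw [← Nat.card_coe_set_eq, ← Nat.card_coe_set_eq]
    exact hc.ge
  exact SetLike.coe_injective h2

/-- The criterion. -/
theorem isField_of_ann (v₀ : V) (hv₀ : v₀ ≠ 0) (hfaith : ∀ s : S, (∀ v : V, s • v = 0) → s = 0)
    (hsize : ∀ v w : V, v ≠ 0 → w ≠ 0 → Nat.card (annI (S := S) v) = Nat.card (annI (S := S) w)) :
    IsField S := by
  classical
  have hsmul : ∀ (v : V) (s : S), s • v ≠ 0 → annI (S := S) (s • v) = annI v := by
    intro v s hs
    have hv : v ≠ 0 := by
      rintro rfl
      exact hs (smul_zero s)
    symm
    apply eq_of_le_of_card _ (hsize v _ hv hs)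
    intro t ht
    rw [mem_annI] at ht ⊢
    rw [smul_comm, ht, smul_zero]
  have hprime : ∀ v : V, v ≠ 0 → (annI (S := S) v).IsPrime := by
    intro v hv
    refine ⟨?_, ?_⟩
    · intro htop
      have h1 : (1 : S) ∈ annI v := by rw [htop]; exact Submodule.mem_top
      rw [mem_annI, one_smul] at h1
      exact hv h1
    · intro a b hab
      by_cases ha : a ∈ annI v
      · exact Or.inl ha
      · right
        have h1 : a • v ≠ 0 := ha
        rw [← hsmul v a h1, mem_annI, smul_smul, mul_comm]
        exact hab
  have hmax : ∀ v : V, v ≠ 0 → (annI (S := S) v).IsMaximal := by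
    intro v hv
    haveI := hprime v hv
    haveI : Finite (S ⧸ annI (S := S) v) := Quotient.finite _
    exact Ideal.Quotient.maximal_of_isField _ (Finite.isField_of_domain _)
  have heq : ∀ v w : V, v ≠ 0 → w ≠ 0 → annI (S := S) v = annI w := by
    intro v w hv hw
    by_contra hne
    have hsup := Ideal.IsMaximal.coprime_of_ne (hmax v hv) (hmax w hw) hne
    have h1 : (1 : S) ∈ annI (S := S) v ⊔ annI w := by rw [hsup]; exact Submodule.mem_top
    obtain ⟨i, hi, j, hj, hij⟩ := Submodule.mem_sup.mp h1
    have hvw : v + w ≠ 0 := by
      intro h0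
      apply hne
      have h2 : w = -v := (neg_eq_of_add_eq_zero_right h0).symm
      rw [h2]
      ext s
      rw [mem_annI, mem_annI, smul_neg, neg_eq_zero]
    have hle1 : annI (S := S) (v + w) ≤ annI v := by
      intro s hs
      rw [mem_annI, smul_add] at hs
      rw [mem_annI]
      have h3 : s • v = -(s • w) := eq_neg_of_add_eq_zero_left hs
      calc s • v = (i + j) • (s • v) := by rw [hij, one_smul]
        _ = s • (i • v) + j • (s • v) := by rw [add_smul, smul_comm]
        _ = s • (i • v) - s • (j • w) := by
            rw [h3, smul_neg, smul_comm j s w, sub_eq_add_neg]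
        _ = 0 := by
            rw [show i • v = 0 from hi, show j • w = 0 from hj, smul_zero, sub_zero]
    have hle2 : annI (S := S) (v + w) ≤ annI w := by
      intro s hs
      rw [mem_annI, smul_add] at hs
      rw [mem_annI]
      have h3 : s • w = -(s • v) := eq_neg_of_add_eq_zero_right hs
      calc s • w = (j + i) • (s • w) := by rw [add_comm, hij, one_smul]
        _ = s • (j • w) + i • (s • w) := by rw [add_smul, smul_comm]
        _ = s • (j • w) - s • (i • v) := by
            rw [h3, smul_neg, smul_comm i s v, sub_eq_add_neg]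
        _ = 0 := by
            rw [show i • v = 0 from hi, show j • w = 0 from hj, smul_zero, sub_zero]
    have e1 := eq_of_le_of_card hle1 (hsize _ _ hvw hv)
    have e2 := eq_of_le_of_card hle2 (hsize _ _ hvw hw)
    exact hne (e1.symm.trans e2)
  have hbot : ∀ v : V, v ≠ 0 → annI (S := S) v = ⊥ := by
    intro v hv
    rw [eq_bot_iff]
    intro s hs
    rw [Ideal.mem_bot]
    apply hfaith
    intro w
    by_cases hw : w = 0
    · rw [hw, smul_zero]
    · have h2 : s ∈ annI w := by rw [← heq v w hv hw]; exact hs
      exact h2
  haveI : Nontrivial S := by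
    refine ⟨⟨1, 0, fun h10 => hv₀ ?_⟩⟩
    have := congrArg (fun s : S => s • v₀) h10
    simpa using this
  haveI : NoZeroDivisors S := by
    refine ⟨fun {a b} hab => ?_⟩
    by_cases ha : a = 0
    · exact Or.inl ha
    · right
      by_contra hb
      have h1 : ∃ v : V, a • v ≠ 0 := by
        by_contra hcon
        push Not at hcon
        exact ha (hfaith a hcon)
      obtain ⟨v, hv⟩ := h1
      have h2 : b ∈ annI (a • v) := by
        rw [mem_annI, smul_smul, mul_comm, hab, zero_smul]
      rw [hbot _ hv, Ideal.mem_bot] at h2
      exact hb h2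
  haveI : IsDomain S := NoZeroDivisors.to_isDomain S
  exact Finite.isField_of_domain S

end ann

section frob

/-- Ring endomorphisms of a finite field are powers of Frobenius. -/
theorem exists_frob_pow {L : Type*} [Field L] [Finite L] (p : ℕ) [Fact p.Prime] [CharP L p]
    (τ : L →+* L) : ∃ m : ℕ, ∀ x : L, τ x = x ^ p ^ m := by
  classical
  haveI : Fintype L := Fintype.ofFinite L
  letI : Algebra (ZMod p) L := ZMod.algebra L p
  haveI : Module.Finite (ZMod p) L := Module.Finite.of_finite
  let τ' : L →ₐ[ZMod p] L :=
    { τ with
      commutes' := fun c => by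
        change τ (algebraMap (ZMod p) L c) = algebraMap (ZMod p) L c
        have h := RingHom.ext_iff.mp (Subsingleton.elim (τ.comp (algebraMap (ZMod p) L))
          (algebraMap (ZMod p) L)) c
        exact h }
  obtain ⟨n, hn⟩ := (FiniteField.bijective_frobeniusAlgHom_pow (ZMod p) L).2 τ'
  refine ⟨n.1, fun x => ?_⟩
  have h1 := congrArg (fun f : L →ₐ[ZMod p] L => f x) hn
  have h2 : ∀ k : ℕ, ∀ y : L, (FiniteField.frobeniusAlgHom (ZMod p) L ^ k) y = y ^ p ^ k := by
    intro k
    induction k with
    | zero => intro y; simp
    | succ k ih =>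
      intro y
      rw [pow_succ', AlgHom.mul_apply, FiniteField.coe_frobeniusAlgHom, ih, ZMod.card, pow_succ]
      exact (pow_mul y (p ^ k) p).symm
  simp only at h1
  rw [h2] at h1
  exact h1.symm

end frob

end Cfsg.Agent.Lib.AutOrb
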