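import Mathlib
import Cfsg.Agent.Lib.AutOrb.Ring

/-!
# Primitive roots from transitivity
-/

set_option autoImplicit false

namespace Cfsg.Agent.Lib.AutOrb

open scoped IsMulCommutative

section

variable {V : Type*} [AddCommGroup V] [Finite V]

/-- Conjugation by `ψ` preserves the subring generated by `ρ`. -/
theorem conj_mem_closure (ρ : AddMonoid.End V) (ψ : V ≃+ V) (i : ℕ)
    (hψ : ∀ u, ψ (ρ u) = (ρ ^ i) (ψ u)) (s : AddMonoid.End V)
    (hs : s ∈ Subring.closure ({ρ} : Set (AddMonoid.End V))) :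
    ∃ s' ∈ Subring.closure ({ρ} : Set (AddMonoid.End V)), ∀ u, ψ (s u) = s' (ψ u) := by
  induction hs using Subring.closure_induction with
  | mem x hx =>
    rw [Set.mem_singleton_iff] at hx
    rw [hx]
    exact ⟨ρ ^ i, pow_mem (Subring.subset_closure (Set.mem_singleton ρ)) i, hψ⟩
  | zero => exact ⟨0, zero_mem _, fun u => by simp⟩
  | one => exact ⟨1, one_mem _, fun u => by simp⟩
  | add x y _ _ hx hy =>
    obtain ⟨x', hx', hxe⟩ := hx
    obtain ⟨y', hy', hye⟩ := hy
    refine ⟨x' + y', add_mem hx' hy', fun u => ?_⟩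
    change ψ (x u + y u) = x' (ψ u) + y' (ψ u)
    rw [map_add, hxe, hye]
  | neg x _ hx =>
    obtain ⟨x', hx', hxe⟩ := hx
    refine ⟨-x', neg_mem hx', fun u => ?_⟩
    change ψ (-(x u)) = -(x' (ψ u))
    rw [map_neg, hxe]
  | mul x y _ _ hx hy =>
    obtain ⟨x', hx', hxe⟩ := hx
    obtain ⟨y', hy', hye⟩ := hy
    refine ⟨x' * y', mul_mem hx' hy', fun u => ?_⟩
    change ψ (x (y u)) = x' (y' (ψ u))
    rw [hxe, hye]

theorem isMulCommutative_closure_singleton (ρ : AddMonoid.End V) :
    IsMulCommutative (Subring.closure ({ρ} : Set (AddMonoid.End V))) :=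
  Subring.isMulCommutative_closure (fun x hx y hy => by
    rw [Set.mem_singleton_iff] at hx hy
    rw [hx, hy])

set_option maxHeartbeats 2000000 in
/-- **The primitive root criterion.** -/
theorem orderOf_eq_of_transitive {p q : ℕ} [hp : Fact p.Prime] [hq : Fact q.Prime] (hpq : p ≠ q)
    (hpV : ∀ v : V, p • v = 0) (ρ : AddMonoid.End V) (hρq : ρ ^ q = 1) (hρ1 : ρ ≠ 1)
    (v₀ : V) (hv₀ : v₀ ≠ 0)
    (htr : ∀ v w : V, v ≠ 0 → w ≠ 0 → ∃ (ψ : V ≃+ V) (i : ℕ), ψ v = w ∧ ∀ u, ψ (ρ u) = (ρ ^ i) (ψ u))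
    (hj : ∀ j : ℕ, j.Coprime q → ∃ ψ : V ≃+ V, ∀ u, ψ (ρ u) = (ρ ^ j) (ψ u)) :
    orderOf (p : ZMod q) = q - 1 := by
  classical
  let S : Subring (AddMonoid.End V) := Subring.closure ({ρ} : Set (AddMonoid.End V))
  haveI hScomm : IsMulCommutative S := isMulCommutative_closure_singleton ρ
  haveI : Finite (AddMonoid.End V) :=
    Finite.of_injective (fun f : AddMonoid.End V => (f : V → V)) DFunLike.coe_injective
  have hρS : ρ ∈ S := Subring.subset_closure (Set.mem_singleton ρ)
  have hsmul : ∀ (s : S) (v : V), s • v = (s : AddMonoid.End V) v := fun _ _ => rfl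
  -- the sizes
  let fv : V → (S →+ V) := fun v =>
    { toFun := fun s => s • v
      map_zero' := zero_smul _ _
      map_add' := fun a b => add_smul a b v }
  have hann : ∀ v : V, Nat.card (annI (S := S) v) = Nat.card (fv v).ker := fun v =>
    Nat.card_congr (Equiv.subtypeEquivRight (fun s => Iff.rfl))
  have hmul : ∀ v : V, Nat.card (fv v).ker * Nat.card (fv v).range = Nat.card S := by
    intro v
    rw [← AddSubgroup.index_ker, AddSubgroup.card_mul_index]
  have hle : ∀ v w : V, v ≠ 0 → w ≠ 0 → Nat.card (fv v).range ≤ Nat.card (fv w).range := by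
    intro v w hv hw
    obtain ⟨ψ, i, hψv, hψ⟩ := htr v w hv hw
    have hmap : ∀ x : (fv v).range, ψ x.1 ∈ (fv w).range := by
      rintro ⟨_, s, rfl⟩
      obtain ⟨s', hs', hse⟩ := conj_mem_closure ρ ψ i hψ s.1 s.2
      refine ⟨⟨s', hs'⟩, ?_⟩
      change s' w = ψ (s.1 v)
      rw [hse, hψv]
    refine Nat.card_le_card_of_injective (fun x => (⟨ψ x.1, hmap x⟩ : (fv w).range)) ?_
    intro x y hxy
    exact Subtype.ext (ψ.injective (congrArg Subtype.val hxy))
  have hsize : ∀ v w : V, v ≠ 0 → w ≠ 0 →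
      Nat.card (annI (S := S) v) = Nat.card (annI (S := S) w) := by
    intro v w hv hw
    rw [hann, hann]
    have h1 := hmul v
    have h2 := hmul w
    have h3 := le_antisymm (hle v w hv hw) (hle w v hw hv)
    rw [h3, ← h2] at h1
    have h4 : 0 < Nat.card (fv w).range := Nat.card_pos
    exact Nat.eq_of_mul_eq_mul_right h4 h1
  have hF : IsField S := isField_of_ann v₀ hv₀ (fun s hs => by
    apply Subtype.ext
    ext v
    exact hs v) hsize
  letI : Field S := hF.toField
  let ρh : S := ⟨ρ, hρS⟩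
  have hρhq : ρh ^ q = 1 := Subtype.ext (by simpa [ρh] using hρq)
  have hρh1 : ρh ≠ 1 := fun h => hρ1 (congrArg Subtype.val h)
  have hordρ : orderOf ρh = q := orderOf_eq_prime hρhq hρh1
  haveI hchar : CharP S p := by
    have hp0 : ((p : ℕ) : S) = 0 := by
      apply Subtype.ext
      ext v
      simpa [AddMonoid.End.natCast_apply] using hpV v
    obtain ⟨r, hr⟩ := CharP.exists S
    have hd := (CharP.cast_eq_zero_iff S r p).mp hp0
    rcases (Nat.dvd_prime hp.out).mp hd with h1 | h1
    · exact absurd h1 (CharP.char_ne_one S r)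
    · rwa [h1] at hr
  -- every residue is a power of `p`
  have hpow : ∀ j : ℕ, j.Coprime q → ∃ m : ℕ, (p : ZMod q) ^ m = j := by
    intro j hjq
    obtain ⟨ψ, hψ⟩ := hj j hjq
    have hmemS : ∀ s : S, (ψ.toAddMonoidHom.comp ((s : AddMonoid.End V).comp ψ.symm.toAddMonoidHom) :
        AddMonoid.End V) ∈ S := by
      intro s
      obtain ⟨s', hs', hse⟩ := conj_mem_closure ρ ψ j hψ s.1 s.2
      have : (ψ.toAddMonoidHom.comp ((s : AddMonoid.End V).comp ψ.symm.toAddMonoidHom) :
          AddMonoid.End V) = s' := by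
        ext u
        change ψ (s.1 (ψ.symm u)) = s' u
        rw [hse, AddEquiv.apply_symm_apply]
      rw [this]
      exact hs'
    let τ : S →+* S :=
      { toFun := fun s => ⟨_, hmemS s⟩
        map_one' := by
          apply Subtype.ext
          ext u
          change ψ (ψ.symm u) = u
          simp
        map_mul' := fun a b => by
          apply Subtype.ext
          ext u
          change ψ (a.1 (b.1 (ψ.symm u))) = ψ (a.1 (ψ.symm (ψ (b.1 (ψ.symm u)))))
          simp
        map_zero' := by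
          apply Subtype.ext
          ext u
          change ψ (0 : V) = 0
          simp
        map_add' := fun a b => by
          apply Subtype.ext
          ext u
          change ψ (a.1 (ψ.symm u) + b.1 (ψ.symm u)) = ψ (a.1 (ψ.symm u)) + ψ (b.1 (ψ.symm u))
          simp }
    obtain ⟨m, hm⟩ := exists_frob_pow p τ
    refine ⟨m, ?_⟩
    have h1 : τ ρh = ρh ^ j := by
      apply Subtype.ext
      ext u
      change ψ (ρ (ψ.symm u)) = (ρ ^ j) u
      rw [hψ, AddEquiv.apply_symm_apply]
    have h2 := hm ρh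
    rw [h1] at h2
    have h3 : j ≡ p ^ m [MOD q] := by
      have hρh0 : ρh ≠ 0 := by
        intro h0
        rw [h0, zero_pow hq.out.ne_zero] at hρhq
        exact zero_ne_one hρhq
      let u₀ : Sˣ := Units.mk0 ρh hρh0
      have hu₀ : orderOf u₀ = q := by
        rw [← hordρ, ← orderOf_units]
        rfl
      rw [← hu₀]
      apply (pow_eq_pow_iff_modEq).mp
      apply Units.ext
      exact h2
    have h4 := (ZMod.natCast_eq_natCast_iff _ _ _).mpr h3
    push_cast at h4
    exact h4.symm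
  have hp0 : (p : ZMod q) ≠ 0 := by
    intro h0
    rw [ZMod.natCast_eq_zero_iff] at h0
    exact hpq ((Nat.prime_dvd_prime_iff_eq hq.out hp.out).mp h0).symm
  let u : (ZMod q)ˣ := Units.mk0 _ hp0
  have hgen : ∀ w : (ZMod q)ˣ, w ∈ Subgroup.zpowers u := by
    intro w
    have hw0 : (w : ZMod q) ≠ 0 := w.ne_zero
    have hjq : ((w : ZMod q).val).Coprime q := by
      refine Nat.Coprime.symm ((Nat.Prime.coprime_iff_not_dvd hq.out).mpr fun hd => hw0 ?_)
      have := (ZMod.natCast_eq_zero_iff _ _).mpr hd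
      rwa [ZMod.natCast_zmod_val] at this
    obtain ⟨m, hm⟩ := hpow _ hjq
    refine ⟨m, ?_⟩
    apply Units.ext
    rw [ZMod.natCast_zmod_val] at hm
    have h7 : ((u ^ (m : ℤ) : (ZMod q)ˣ) : ZMod q) = (p : ZMod q) ^ m := by
      rw [zpow_natCast, Units.val_pow_eq_pow_val]
      rfl
    exact h7.trans hm
  have hu : orderOf u = q - 1 := by
    rw [orderOf_eq_card_of_forall_mem_zpowers hgen, Nat.card_eq_fintype_card, ZMod.card_units]
  rw [← hu, ← orderOf_units]
  rfl

end

end Cfsg.Agent.Lib.AutOrb
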