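import Mathlib
import Cfsg.Agent.Lib.AutOrb.Prim
import Cfsg.Agent.Lib.AutOrb.Back
import Cfsg.Agent.Lib.Core.Solvable
import Cfsg.Agent.Lib.Hall.Generation
import Cfsg.Agent.Lib.Char.Burnside

/-!
# Exactly three orbits: the direct implication
-/

set_option autoImplicit false

namespace Cfsg.Agent.Lib.AutOrb

open Subgroup Cfsg Cfsg.Agent.Lib.Core Cfsg.Agent.Lib.Fpf4
open scoped IsMulCommutative

variable {G : Type*} [Group G] [Finite G]

section restrict

variable (P : Subgroup G) [hPn : P.Normal] [hPc : IsMulCommutative P]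
  (hφ : ∀ (φ : MulAut G), ∀ x ∈ P, φ x ∈ P)

/-- The restriction of an automorphism to an invariant abelian subgroup. -/
noncomputable def restrictAdd (φ : MulAut G) : Additive P ≃+ Additive P where
  toFun u := Additive.ofMul (⟨φ (Additive.toMul u : P), hφ φ _ (Additive.toMul u : P).2⟩ : P)
  invFun u := Additive.ofMul (⟨φ⁻¹ (Additive.toMul u : P), hφ φ⁻¹ _ (Additive.toMul u : P).2⟩ : P)
  left_inv u := by
    apply Additive.toMul.injective
    apply Subtype.ext
    change φ⁻¹ (φ ((Additive.toMul u : P) : G)) = _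
    simp
  right_inv u := by
    apply Additive.toMul.injective
    apply Subtype.ext
    change φ (φ⁻¹ ((Additive.toMul u : P) : G)) = _
    simp
  map_add' a b := by
    apply Additive.toMul.injective
    apply Subtype.ext
    change φ (((Additive.toMul a : P) : G) * (Additive.toMul b : P)) =
      φ ((Additive.toMul a : P) : G) * φ ((Additive.toMul b : P) : G)
    rw [map_mul]

theorem restrictAdd_val (φ : MulAut G) (u : Additive P) :
    ((Additive.toMul (restrictAdd P hφ φ u) : P) : G) = φ ((Additive.toMul u : P) : G) := rfl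

theorem restrictAdd_conj (φ : MulAut G) {y w₀ : G} (i : ℕ) (hw₀ : w₀ ∈ P) (hy : φ y = w₀ * y ^ i)
    (u : Additive P) : restrictAdd P hφ φ (conjEnd P y u) =
      (conjEnd P y ^ i) (restrictAdd P hφ φ u) := by
  apply Additive.toMul.injective
  apply Subtype.ext
  rw [← map_pow, restrictAdd_val, conjEnd_apply, conjEnd_apply, restrictAdd_val, map_mul, map_mul,
    map_inv, hy]
  set m : G := φ ((Additive.toMul u : P) : G) with hm
  have hmP : m ∈ P := hφ φ _ (Additive.toMul u : P).2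
  have hyi : y ^ i * m * (y ^ i)⁻¹ ∈ P := hPn.conj_mem m hmP _
  have hc : w₀ * (y ^ i * m * (y ^ i)⁻¹) = (y ^ i * m * (y ^ i)⁻¹) * w₀ :=
    congrArg Subtype.val (mul_comm (⟨w₀, hw₀⟩ : P) ⟨_, hyi⟩)
  calc w₀ * y ^ i * m * (w₀ * y ^ i)⁻¹ = (w₀ * (y ^ i * m * (y ^ i)⁻¹)) * w₀⁻¹ := by group
    _ = _ := by rw [hc]; group

end restrict

/-- The structural part. -/
theorem forward_aux {p q a b : ℕ} [hp : Fact p.Prime] [hq : Fact q.Prime] (hpq : p ≠ q)
    (hG : Nat.card G = p ^ a * q ^ b)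
    (hord : ∀ g : G, g ≠ 1 → orderOf g = p ∨ orderOf g = q)
    (htrans : ∀ g g' : G, g ≠ 1 → orderOf g = orderOf g' → ∃ φ : MulAut G, φ g = g')
    (hP : pCore p G ≠ ⊥) {y : G} (hy : orderOf y = q) :
    ∃ n, 1 ≤ n ∧ Nat.card G = p ^ n * q ∧
      (∀ S : Sylow p G, (S : Subgroup G).Normal ∧ Cfsg.IsElementaryAbelian p (S : Subgroup G)) ∧
      orderOf (p : ZMod q) = q - 1 ∧
      ∀ x y : G, orderOf x = q → orderOf y = p → x * y * x⁻¹ ≠ y := by
  classical
  let P : Subgroup G := pCore p G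
  haveI hPn : P.Normal := pCore_normal p G
  have hPp : IsPGroup p P := pCore_isPGroup p G
  have hpprime := hp.out
  have hqprime := hq.out
  have hordp : ∀ (S : Subgroup G), IsPGroup p S → ∀ x ∈ S, x ≠ 1 → orderOf x = p := by
    intro S hS x hx hx1
    obtain ⟨k, hk⟩ := IsPGroup.iff_orderOf.mp hS ⟨x, hx⟩
    rw [Subgroup.orderOf_mk] at hk
    rcases hord x hx1 with h | h
    · exact h
    · exfalso
      rw [h] at hk
      have h1 : q ∣ p ^ k := by rw [← hk]
      exact hpq ((Nat.prime_dvd_prime_iff_eq hqprime hpprime).mp (hqprime.dvd_of_dvd_pow h1)).symm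
  have hordP : ∀ x ∈ P, x ≠ 1 → orderOf x = p := hordp P hPp
  have hφ : ∀ (φ : MulAut G), ∀ x ∈ P, φ x ∈ P := fun φ x hx =>
    (Subgroup.characteristic_iff_le_comap.mp (pCore_characteristic p G) φ) hx
  obtain ⟨z, hz, hz1⟩ : ∃ z ∈ P, z ≠ 1 := by
    obtain ⟨m, hm⟩ := (Subgroup.ne_bot_iff_exists_ne_one (H := P)).mp hP
    exact ⟨m.1, m.2, fun h' => hm (Subtype.ext h')⟩
  have hzo := hordP z hz hz1
  have hallp : ∀ g, orderOf g = p → g ∈ P := by
    intro g hg
    obtain ⟨φ, rfl⟩ := htrans z g hz1 (by rw [hzo, hg])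
    exact hφ φ z hz
  have hSyl : ∀ S : Sylow p G, (S : Subgroup G) = P := by
    intro S
    apply le_antisymm
    · intro x hx
      by_cases hx1 : x = 1
      · rw [hx1]
        exact one_mem _
      · exact hallp x (hordp S S.isPGroup' x hx hx1)
    · exact pCore_le_sylow S
  -- `P` is abelian
  haveI : Nontrivial P := by
    refine ⟨⟨⟨z, hz⟩, 1, fun h => hz1 (congrArg Subtype.val h)⟩⟩
  haveI hcn : Nontrivial (Subgroup.center P) := hPp.center_nontrivial
  obtain ⟨z₀, hz₀⟩ := exists_ne (1 : Subgroup.center P)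
  have hz₀1 : ((z₀ : P) : G) ≠ 1 := fun h => hz₀ (Subtype.ext (Subtype.ext h))
  have hz₀c : ∀ w : P, w * (z₀ : P) = (z₀ : P) * w := Subgroup.mem_center_iff.mp z₀.2
  have hcomm : ∀ v ∈ P, ∀ w ∈ P, v * w = w * v := by
    intro v hv w hw
    by_cases hv1 : v = 1
    · rw [hv1, one_mul, mul_one]
    obtain ⟨φ, rfl⟩ := htrans _ v hz₀1 (by rw [hordP _ (z₀ : P).2 hz₀1, hordP v hv hv1])
    have hw' : φ⁻¹ w ∈ P := hφ φ⁻¹ w hw
    have h1 := congrArg Subtype.val (hz₀c ⟨_, hw'⟩)
    have h2 := congrArg φ h1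
    simp only [Subgroup.coe_mul, map_mul] at h2
    have h3 : φ (φ⁻¹ w) = w := by simp
    rw [h3] at h2
    exact h2.symm
  haveI hPc : IsMulCommutative P := ⟨⟨fun a b => Subtype.ext (hcomm a a.2 b b.2)⟩⟩
  have hexp : ∀ x ∈ P, x ^ p = 1 := by
    intro x hx
    by_cases hx1 : x = 1
    · rw [hx1, one_pow]
    · rw [← hordP x hx hx1]
      exact pow_orderOf_eq_one x
  -- no elements of order `pq`
  have hnc : ∀ x y : G, orderOf x = q → orderOf y = p → x * y * x⁻¹ ≠ y := by
    intro x y hx hy' hc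
    have hc' : Commute x y := mul_inv_eq_iff_eq_mul.mp hc
    have hcop : (orderOf x).Coprime (orderOf y) := by
      rw [hx, hy']
      exact (Nat.coprime_primes hqprime hpprime).mpr hpq.symm
    have h1 := hc'.orderOf_mul_eq_mul_orderOf_of_coprime hcop
    rw [hx, hy'] at h1
    have hne : x * y ≠ 1 := by
      intro h2
      rw [h2, orderOf_one] at h1
      have := Nat.mul_pos hqprime.pos hpprime.pos
      have := hqprime.two_le
      have := hpprime.two_le
      nlinarith
    have := hqprime.two_le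
    have := hpprime.two_le
    rcases hord _ hne with h2 | h2 <;> rw [h1] at h2 <;> nlinarith
  -- the Sylow `q`-subgroup has order `q`
  have hcardP : ∃ k, Nat.card P = p ^ k := IsPGroup.iff_card.mp hPp
  obtain ⟨k, hk⟩ := hcardP
  have hqcop : q.Coprime (Nat.card P) := by
    rw [hk]
    exact Nat.Coprime.pow_right k ((Nat.coprime_primes hqprime hpprime).mpr hpq.symm)
  have hqdvd : q ∣ Nat.card G := by
    rw [← hy]
    exact orderOf_dvd_natCard y
  have hb0 : b ≠ 0 := by
    rintro rfl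
    rw [hG, pow_zero, mul_one] at hqdvd
    exact hpq ((Nat.prime_dvd_prime_iff_eq hqprime hpprime).mp (hqprime.dvd_of_dvd_pow hqdvd)).symm
  have hb2 : b < 2 := by
    by_contra hb
    push Not at hb
    have h1 : q ^ 2 ∣ Nat.card G := by
      rw [hG]
      exact Dvd.dvd.mul_left (pow_dvd_pow q hb) _
    obtain ⟨E, hE⟩ := Sylow.exists_subgroup_card_pow_prime q h1
    have hEp : IsPGroup q E := IsPGroup.of_card hE
    have hEexp : ∀ x ∈ E, x ^ q = 1 := by
      intro x hx
      by_cases hx1 : x = 1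
      · rw [hx1, one_pow]
      · obtain ⟨j, hj⟩ := IsPGroup.iff_orderOf.mp hEp ⟨x, hx⟩
        rw [Subgroup.orderOf_mk] at hj
        rcases hord x hx1 with h | h
        · exfalso
          rw [h] at hj
          have h2 : p ∣ q ^ j := by rw [← hj]
          exact hpq ((Nat.prime_dvd_prime_iff_eq hpprime hqprime).mp (hpprime.dvd_of_dvd_pow h2))
        · rw [← h]
          exact pow_orderOf_eq_one x
    have hnorm : E ≤ normalizer (P : Set G) := by
      rw [normalizer_eq_top]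
      exact le_top
    have hgen := Cfsg.Agent.Lib.Hall.generation_elementary hqprime hE hEexp (Nat.card P) P le_rfl
      hnorm hqcop
    apply hP
    change P = ⊥
    rw [← hgen]
    refine le_antisymm (iSup₂_le ?_) bot_le
    rintro e ⟨he, he1⟩ v ⟨hv, hve⟩
    by_contra hv1
    have hv1' : v ≠ 1 := fun h => hv1 (by rw [h]; exact one_mem _)
    have heo : orderOf e = q := orderOf_eq_prime (hEexp e he) he1
    apply hnc e v heo (hordP v hv hv1')
    have := Subgroup.mem_centralizer_singleton_iff.mp hve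
    rw [← this]
    group
  have hb1 : b = 1 := by omega
  subst hb1
  rw [pow_one] at hG
  -- the order of `P`
  have hka : k = a := by
    have h1 := (default : Sylow p G).card_eq_multiplicity
    rw [hSyl, hk] at h1
    have hq0 := hqprime.ne_zero
    have hpq' : ¬ p ∣ q := fun h => hpq ((Nat.prime_dvd_prime_iff_eq hpprime hqprime).mp h)
    rw [hG, Nat.factorization_mul (pow_ne_zero _ hpprime.ne_zero) hq0] at h1
    simp only [Finsupp.coe_add, Pi.add_apply, Nat.Prime.factorization_pow hpprime,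
      Finsupp.single_eq_same, Nat.factorization_eq_zero_of_not_dvd hpq', add_zero] at h1
    exact Nat.pow_right_injective hpprime.two_le h1
  subst hka
  have hk1 : 1 ≤ k := by
    by_contra hk0
    have hk00 : k = 0 := by omega
    rw [hk00, pow_zero] at hk
    exact hP (Subgroup.card_eq_one.mp hk)
  refine ⟨k, hk1, hG, ?_, ?_, hnc⟩
  · intro S
    rw [hSyl]
    exact ⟨hPn, hPc, hexp⟩
  -- the primitive root
  have hGP : Nat.card P * Nat.card (zpowers y) = Nat.card G := by
    rw [hk, Nat.card_zpowers, hy, hG]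
  have hc : P.IsComplement' (zpowers y) := by
    apply Subgroup.isComplement'_of_coprime hGP
    rw [Nat.card_zpowers, hy]
    exact hqcop.symm
  have hdec : ∀ g : G, ∃ (i : ℕ) (w₀ : G), w₀ ∈ P ∧ g = w₀ * y ^ i := by
    intro g
    obtain ⟨⟨w, c⟩, hwc⟩ := hc.2 g
    obtain ⟨i, hi⟩ := mem_powers_iff_mem_zpowers.mpr c.2
    refine ⟨i, w, w.2, ?_⟩
    have hi' : y ^ i = c := hi
    rw [hi']
    exact hwc.symm
  let ρ : AddMonoid.End (Additive P) := conjEnd P y
  have hρ : ∀ (φ : MulAut G) (i : ℕ) (w₀ : G), w₀ ∈ P → φ y = w₀ * y ^ i → ∀ u,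
      restrictAdd P hφ φ (ρ u) = (ρ ^ i) (restrictAdd P hφ φ u) :=
    fun φ i w₀ hw₀ h u => restrictAdd_conj P hφ φ i hw₀ h u
  refine orderOf_eq_of_transitive hpq ?_ ρ ?_ ?_ (Additive.ofMul (⟨z, hz⟩ : P)) ?_ ?_ ?_
  · intro v
    apply Additive.toMul.injective
    apply Subtype.ext
    exact hexp _ (Additive.toMul v : P).2
  · change (conjEnd P y) ^ q = 1
    rw [← map_pow, ← hy, pow_orderOf_eq_one, map_one]
  · intro h1
    have h2 := congrArg (fun f : AddMonoid.End (Additive P) =>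
      ((Additive.toMul (f (Additive.ofMul (⟨z, hz⟩ : P))) : P) : G)) h1
    exact hnc y z hy hzo h2
  · intro h0
    exact hz1 (congrArg Subtype.val (Additive.ofMul.injective h0))
  · intro v w hv hw
    have hv' : (Additive.toMul v : P).1 ≠ 1 := fun h =>
      hv (Additive.toMul.injective (Subtype.ext h))
    have hw' : (Additive.toMul w : P).1 ≠ 1 := fun h =>
      hw (Additive.toMul.injective (Subtype.ext h))
    obtain ⟨φ, hφ1⟩ := htrans (Additive.toMul v : P).1 (Additive.toMul w : P).1 hv' (by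
      rw [hordP _ (Additive.toMul v : P).2 hv', hordP _ (Additive.toMul w : P).2 hw'])
    obtain ⟨i, w₀, hw₀, hi⟩ := hdec (φ y)
    refine ⟨restrictAdd P hφ φ, i, ?_, hρ φ i w₀ hw₀ hi⟩
    apply Additive.toMul.injective
    apply Subtype.ext
    exact hφ1
  · intro j hj
    have hyj : orderOf (y ^ j) = q := by
      rw [Nat.Coprime.orderOf_pow (by rw [hy]; exact hj.symm), hy]
    have hy1 : y ≠ 1 := by
      rintro rfl
      rw [orderOf_one] at hy
      exact hqprime.one_lt.ne hy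
    obtain ⟨φ, hφ1⟩ := htrans y (y ^ j) hy1 (by rw [hy, hyj])
    exact ⟨restrictAdd P hφ φ, hρ φ j 1 (one_mem _) (by rw [hφ1, one_mul])⟩

/-- **The direct implication.** -/
theorem struct_of_three_orbits (hnpp : ¬ IsPrimePow (Nat.card G)) (hnt : Nat.card G ≠ 1)
    (h3 : Nat.card (MulAction.orbitRel.Quotient (MulAut G) G) = 3) :
    ∃ (p q n : ℕ) (_ : Fact p.Prime) (_ : Fact q.Prime), p ≠ q ∧ 1 ≤ n ∧ Nat.card G = p ^ n * q ∧
      (∀ P : Sylow p G, (P : Subgroup G).Normal ∧ Cfsg.IsElementaryAbelian p (P : Subgroup G)) ∧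
      orderOf (p : ZMod q) = q - 1 ∧
      ∀ x y : G, orderOf x = q → orderOf y = p → x * y * x⁻¹ ≠ y := by
  classical
  have hG0 : Nat.card G ≠ 0 := Nat.card_pos.ne'
  obtain ⟨r₁, hr₁, hr₁d⟩ := Nat.exists_prime_and_dvd hnt
  obtain ⟨r₂, hr₂, hr₂d, hne⟩ : ∃ r₂, r₂.Prime ∧ r₂ ∣ Nat.card G ∧ r₂ ≠ r₁ := by
    by_contra hcon
    push Not at hcon
    apply hnpp
    have h1 := Nat.eq_prime_pow_of_unique_prime_dvd hG0 (fun {d} hd hdvd => hcon d hd hdvd)
    have h2 : (Nat.card G).primeFactorsList.length ≠ 0 := by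
      intro h0
      rw [h0, pow_zero] at h1
      exact hnt h1
    rw [h1]
    exact hr₁.isPrimePow.pow h2
  haveI : Fact r₁.Prime := ⟨hr₁⟩
  haveI : Fact r₂.Prime := ⟨hr₂⟩
  obtain ⟨x₁, hx₁⟩ := exists_prime_orderOf_dvd_card' r₁ hr₁d
  obtain ⟨x₂, hx₂⟩ := exists_prime_orderOf_dvd_card' r₂ hr₂d
  have h1r₁ := hr₁.one_lt
  have h1r₂ := hr₂.one_lt
  let f : Fin 3 → MulAction.orbitRel.Quotient (MulAut G) G :=
    ![Quotient.mk'' (1 : G), Quotient.mk'' x₁, Quotient.mk'' x₂]
  have hordinv : ∀ a b : G, (Quotient.mk'' a : MulAction.orbitRel.Quotient (MulAut G) G) =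
      Quotient.mk'' b → orderOf a = orderOf b := by
    intro a b hab
    obtain ⟨φ, rfl⟩ := orbit_mk_eq_iff.mp hab
    exact MulEquiv.orderOf_eq φ b
  have hinj : Function.Injective f := by
    intro i j hij
    fin_cases i <;> fin_cases j <;> first | rfl | skip
    all_goals exfalso
    all_goals
      have h0 := hordinv _ _ hij
      simp only [orderOf_one, hx₁, hx₂] at h0
      omega
  have hbij := hinj.bijective_of_nat_card_le (by rw [h3, Nat.card_fin])
  have hcover : ∀ g : G, g = 1 ∨ (∃ φ : MulAut G, φ x₁ = g) ∨ (∃ φ : MulAut G, φ x₂ = g) := by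
    intro g
    obtain ⟨i, hi⟩ := hbij.2 (Quotient.mk'' g)
    fin_cases i
    · left
      obtain ⟨φ, hφ⟩ := orbit_mk_eq_iff.mp hi.symm
      rw [map_one] at hφ
      exact hφ.symm
    · right; left
      obtain ⟨φ, hφ⟩ := orbit_mk_eq_iff.mp hi.symm
      exact ⟨φ, hφ⟩
    · right; right
      obtain ⟨φ, hφ⟩ := orbit_mk_eq_iff.mp hi.symm
      exact ⟨φ, hφ⟩
  have hord : ∀ g : G, g ≠ 1 → orderOf g = r₁ ∨ orderOf g = r₂ := by
    intro g hg
    rcases hcover g with h | ⟨φ, rfl⟩ | ⟨φ, rfl⟩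
    · exact absurd h hg
    · left
      rw [MulEquiv.orderOf_eq φ x₁, hx₁]
    · right
      rw [MulEquiv.orderOf_eq φ x₂, hx₂]
  have htrans : ∀ g g' : G, g ≠ 1 → orderOf g = orderOf g' → ∃ φ : MulAut G, φ g = g' := by
    intro g g' hg hgg'
    have hg' : g' ≠ 1 := by
      rintro rfl
      rw [orderOf_one] at hgg'
      exact hg (orderOf_eq_one_iff.mp hgg')
    rcases hcover g with h | ⟨φ, rfl⟩ | ⟨φ, rfl⟩
    · exact absurd h hg
    · rcases hcover g' with h | ⟨φ', rfl⟩ | ⟨φ', rfl⟩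
      · exact absurd h hg'
      · exact ⟨φ' * φ⁻¹, by simp [MulAut.mul_apply]⟩
      · exfalso
        rw [MulEquiv.orderOf_eq φ x₁, MulEquiv.orderOf_eq φ' x₂, hx₁, hx₂] at hgg'
        exact hne hgg'.symm
    · rcases hcover g' with h | ⟨φ', rfl⟩ | ⟨φ', rfl⟩
      · exact absurd h hg'
      · exfalso
        rw [MulEquiv.orderOf_eq φ x₂, MulEquiv.orderOf_eq φ' x₁, hx₁, hx₂] at hgg'
        exact hne hgg'
      · exact ⟨φ' * φ⁻¹, by simp [MulAut.mul_apply]⟩
  -- the order of the group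
  have hprimes : ∀ d : ℕ, d.Prime → d ∣ Nat.card G → d = r₁ ∨ d = r₂ := by
    intro d hd hdd
    haveI : Fact d.Prime := ⟨hd⟩
    obtain ⟨g, hg⟩ := exists_prime_orderOf_dvd_card' d hdd
    have hg1 : g ≠ 1 := by
      rintro rfl
      rw [orderOf_one] at hg
      exact hd.one_lt.ne hg
    rcases hord g hg1 with h | h
    · left; rw [← hg, h]
    · right; rw [← hg, h]
  obtain ⟨a, b, hab⟩ : ∃ a b, Nat.card G = r₁ ^ a * r₂ ^ b := by
    refine ⟨(Nat.card G).factorization r₁, (ordCompl[r₁] (Nat.card G)).primeFactorsList.length, ?_⟩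
    have hm0 : ordCompl[r₁] (Nat.card G) ≠ 0 :=
      (Nat.ordCompl_pos r₁ hG0).ne'
    have h2 := Nat.eq_prime_pow_of_unique_prime_dvd (n := ordCompl[r₁] (Nat.card G)) (p := r₂) hm0
      (fun {d} hd hdvd => by
        have h3 : d ∣ Nat.card G := hdvd.trans (Nat.ordCompl_dvd _ _)
        rcases hprimes d hd h3 with h4 | h4
        · exfalso
          rw [h4] at hdvd
          exact Nat.not_dvd_ordCompl hr₁ hG0 hdvd
        · exact h4)
    rw [← h2]
    exact (Nat.ordProj_mul_ordCompl_eq_self _ _).symm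
  haveI : Group.IsSolvable G := Cfsg.Agent.Lib.Char.isSolvable_of_card r₁ r₂ a b hr₁ hr₂ hab
  haveI : Nontrivial G := Finite.one_lt_card_iff_nontrivial.mp (by
    have := Nat.card_pos (α := G)
    omega)
  obtain ⟨r, hr, hrne⟩ := exists_prime_pCore_ne_bot (G := G)
  haveI : Fact r.Prime := ⟨hr⟩
  have hrd : r ∣ Nat.card G := by
    obtain ⟨m, hm⟩ := (Subgroup.ne_bot_iff_exists_ne_one (H := pCore r G)).mp hrne
    obtain ⟨k, hk⟩ := IsPGroup.iff_orderOf.mp (pCore_isPGroup r G) m
    have hk0 : k ≠ 0 := by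
      rintro rfl
      rw [pow_zero] at hk
      exact hm (orderOf_eq_one_iff.mp hk)
    have h1 : orderOf (m : G) = r ^ k := by rw [Subgroup.orderOf_coe]; exact hk
    have h2 : orderOf (m : G) ∣ Nat.card G := orderOf_dvd_natCard _
    rw [h1] at h2
    exact (dvd_pow_self r hk0).trans h2
  rcases hprimes r hr hrd with h | h
  · subst h
    obtain ⟨n, hn1, hn2, hn3, hn4, hn5⟩ := forward_aux hne.symm hab hord htrans hrne hx₂
    exact ⟨r, r₂, n, inferInstance, inferInstance, hne.symm, hn1, hn2, hn3, hn4, hn5⟩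
  · subst h
    have hab' : Nat.card G = r ^ b * r₁ ^ a := by rw [hab, mul_comm]
    have hord' : ∀ g : G, g ≠ 1 → orderOf g = r ∨ orderOf g = r₁ := fun g hg => (hord g hg).symm
    obtain ⟨n, hn1, hn2, hn3, hn4, hn5⟩ := forward_aux hne hab' hord' htrans hrne hx₁
    exact ⟨r, r₁, n, inferInstance, inferInstance, hne, hn1, hn2, hn3, hn4, hn5⟩

end Cfsg.Agent.Lib.AutOrb
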